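import Cfsg.Agent.Lib.WBound.Index

/-!
# Wielandt's bound on the point stabilizers of a primitive group

The three main theorems: `exists_normal_pGroup`, `card_dvd_of_not_constrained`, `fitting_free`.
-/

set_option autoImplicit false

namespace Cfsg.Agent.Lib.WBound

open Cfsg Subgroup MulAction
open Cfsg.Agent.Lib.Components.Basic Cfsg.Agent.Lib.Components.Layer
open Cfsg.Agent.Lib.Components.GenFitting Cfsg.Agent.Lib.Components.Rel
open Cfsg.Agent.Lib.Subnormal.Basic Cfsg.Agent.Lib.Core.Basic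
open Cfsg.Agent.Lib.CharP.Basic Cfsg.Agent.Lib.Coprime.Action Cfsg.Agent.Lib.Components.Bender
open Cfsg.Agent.Lib.Components.CommAct
open scoped Nat commutatorElement Pointwise

variable {G Ω : Type*} [Group G] [MulAction G Ω]

/-- The orbital of the pair `(a, b)`. -/
def orbitalRel (G : Type*) {Ω : Type*} [Group G] [MulAction G Ω] (a b : Ω) (x y : Ω) : Prop :=
  ∃ g : G, g • a = x ∧ g • b = y

theorem orbitalRel_base (a b : Ω) : orbitalRel G a b a b := ⟨1, by simp, by simp⟩

section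
variable [Finite G] [FaithfulSMul G Ω] [Finite Ω]

theorem stabilizer_ne_of_orbit_card (a b : Ω) {d : ℕ}
    (hd : Nat.card (orbit (stabilizer G a) b) = d) (h2 : 2 ≤ d) :
    stabilizer G a ≠ stabilizer G b := by
  intro e
  have hs : orbit (stabilizer G a) b = {b} := by
    ext x
    constructor
    · rintro ⟨⟨g, hg⟩, rfl⟩
      have : g ∈ stabilizer G b := e ▸ hg
      exact this
    · rintro rfl
      exact mem_orbit_self _
  rw [hs] at hd
  simp at hd
  omega

theorem mk_wData (hprim : IsPreprimitive G Ω) (a b : Ω) (hne : stabilizer G a ≠ stabilizer G b) :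
    WData G (orbitalRel G a b) := by
  have hab : a ≠ b := fun e => hne (by rw [e])
  have : Nontrivial Ω := ⟨⟨a, b, hab⟩⟩
  refine
    { coatom := fun x => IsPreprimitive.isCoatom_stabilizer_of_isPreprimitive (G := G) x
      coreFree := ?_
      inv := ?_
      edge := ?_
      ne := ?_
      out := ?_
      inn := ?_ }
  · intro x X hX hle
    rw [eq_bot_iff]
    intro g hg
    rw [mem_bot]
    apply FaithfulSMul.eq_of_smul_eq_smul (α := Ω)
    intro y
    obtain ⟨k, hk⟩ := exists_smul_eq G x y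
    rw [one_smul, ← hk]
    have h1 : k⁻¹ * g * k ∈ X := by
      have := hX.conj_mem g hg k⁻¹
      simpa using this
    have h2 := mem_stabilizer_iff.mp (hle h1)
    rw [mul_smul, mul_smul, inv_smul_eq_iff] at h2
    exact h2
  · rintro g x y ⟨k, rfl, rfl⟩
    exact ⟨g * k, mul_smul _ _ _, mul_smul _ _ _⟩
  · rintro x y x' y' ⟨k, rfl, rfl⟩ ⟨k', rfl, rfl⟩
    exact ⟨k' * k⁻¹, by simp [mul_smul], by simp [mul_smul]⟩
  · rintro x y ⟨k, rfl, rfl⟩ e
    apply hne
    rw [← stab_conj, ← stab_conj] at e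
    have := conj_mono (g := k⁻¹) e.le
    rw [conj_inv_conj, conj_inv_conj] at this
    have h2 := conj_mono (g := k⁻¹) e.ge
    rw [conj_inv_conj, conj_inv_conj] at h2
    exact le_antisymm this h2
  · intro x
    obtain ⟨k, rfl⟩ := exists_smul_eq G a x
    exact ⟨k • b, k, rfl, rfl⟩
  · intro x
    obtain ⟨k, rfl⟩ := exists_smul_eq G b x
    exact ⟨k • a, k, rfl, rfl⟩

theorem card_out (hprim : IsPreprimitive G Ω) (a b : Ω) (x : Ω) :
    Nat.card {y // orbitalRel G a b x y} = Nat.card (orbit (stabilizer G a) b) := by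
  obtain ⟨k, rfl⟩ := exists_smul_eq G a x
  apply Nat.card_congr
  refine (Equiv.subtypeEquiv (MulAction.toPerm k⁻¹) ?_)
  intro y
  constructor
  · rintro ⟨g, hg1, rfl⟩
    refine ⟨⟨k⁻¹ * g, ?_⟩, ?_⟩
    · rw [mem_stabilizer_iff, mul_smul, hg1, inv_smul_smul]
    · simp [Subgroup.smul_def, mul_smul]
  · rintro ⟨⟨g, hg⟩, e⟩
    refine ⟨k * g, ?_, ?_⟩
    · rw [mul_smul, mem_stabilizer_iff.mp hg]
    · have e' : g • b = k⁻¹ • y := e
      rw [mul_smul, e']
      simp

theorem card_in (hprim : IsPreprimitive G Ω) (a b : Ω) (x : Ω) :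
    Nat.card {y // orbitalRel G a b y x} = Nat.card (orbit (stabilizer G b) a) := by
  have h1 := card_out (G := G) hprim b a x
  rw [← h1]
  apply Nat.card_congr
  refine Equiv.subtypeEquiv (Equiv.refl _) ?_
  rintro y
  constructor
  · rintro ⟨g, e1, e2⟩
    exact ⟨g, e2, e1⟩
  · rintro ⟨g, e1, e2⟩
    exact ⟨g, e2, e1⟩

theorem card_orbit_symm (hprim : IsPreprimitive G Ω) (a b : Ω) :
    Nat.card (orbit (stabilizer G b) a) = Nat.card (orbit (stabilizer G a) b) := by
  have hrel : ∀ a b : Ω, (stabilizer G b).relIndex (stabilizer G a) =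
      Nat.card (orbit (stabilizer G a) b) := by
    intro a b
    have e : (stabilizer G b).subgroupOf (stabilizer G a) = stabilizer (stabilizer G a) b := by
      ext x
      simp [mem_subgroupOf, mem_stabilizer_iff, Subgroup.smul_def]
    rw [Subgroup.relIndex, e, index_stabilizer, Nat.card_coe_set_eq]
  rw [← hrel, ← hrel]
  have hcardAB : Nat.card (stabilizer G b) = Nat.card (stabilizer G a) := by
    obtain ⟨g, hg⟩ := exists_smul_eq G a b
    rw [← hg, ← stab_conj, card_conj]
  have hcardrel : ∀ P Q : Subgroup G, P ≤ Q → P.relIndex Q * Nat.card P = Nat.card Q := by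
    intro P Q hPQ
    have := Subgroup.relIndex_mul_relIndex (⊥ : Subgroup G) P Q bot_le hPQ
    rw [Subgroup.relIndex_bot_left, Subgroup.relIndex_bot_left] at this
    rw [← this, mul_comm]
  have h1 := hcardrel _ _ (inf_le_left : stabilizer G a ⊓ stabilizer G b ≤ stabilizer G a)
  have h3 := hcardrel _ _ (inf_le_right : stabilizer G a ⊓ stabilizer G b ≤ stabilizer G b)
  rw [Subgroup.inf_relIndex_left] at h1
  rw [Subgroup.inf_relIndex_right] at h3
  apply Nat.eq_of_mul_eq_mul_right (Nat.card_pos (α := ↥(stabilizer G a ⊓ stabilizer G b)))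
  rw [h1, h3, hcardAB]

/-- The standard data. -/
theorem data_of_hyp (hprim : IsPreprimitive G Ω) (a b : Ω) {d : ℕ}
    (hd : Nat.card (orbit (stabilizer G a) b) = d) (h2 : 2 ≤ d) :
    WData G (orbitalRel G a b) ∧ (∀ x, Nat.card {y // orbitalRel G a b x y} = d) ∧
      (∀ x, Nat.card {y // orbitalRel G a b y x} = d) := by
  refine ⟨mk_wData hprim a b (stabilizer_ne_of_orbit_card a b hd h2), ?_, ?_⟩
  · intro x
    rw [card_out hprim, hd]
  · intro x
    rw [card_in hprim, card_orbit_symm hprim, hd]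

/-- `O_p(G_a) = 1` for all primes implies `F(G_x) = 1` for all `x`. -/
theorem fitIn_eq_bot {R : Ω → Ω → Prop} (h : WData G R) {a : Ω}
    (hF : ∀ p : ℕ, p.Prime → OpIn p (stabilizer G a) = ⊥) (x : Ω) :
    FitIn (stabilizer G x) = ⊥ := by
  obtain ⟨g, hg⟩ := h.exists_smul a x
  rw [FitIn_eq_iSup]
  apply le_bot_iff.mp
  apply iSup_le
  intro q
  rw [← hg, ← stab_conj, ← OpIn_conj_eq, hF q q.2]
  simp

/-- **Wielandt's bound, first form** -/
theorem exists_normal_pGroup (hprim : IsPreprimitive G Ω) (a b : Ω) (d : ℕ)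
    (hd : Nat.card (orbit (stabilizer G a) b) = d) (h2 : 2 ≤ d) :
    ∃ p : ℕ, p.Prime ∧ ∃ P : Subgroup (stabilizer G a), P.Normal ∧ IsPGroup p P ∧
      (∀ g : P, ((g : stabilizer G a) : G) • b = b) ∧ P.index ∣ d ! * ((d - 1)!) ^ d := by
  obtain ⟨h, hout, hin⟩ := data_of_hyp hprim a b hd h2
  by_cases hK : ∃ p : ℕ, p.Prime ∧ IsPGroup p (Ko (orbitalRel G a b) a : Subgroup G)
  · obtain ⟨p, hp, hP⟩ := hK
    refine ⟨p, hp, (Ko (orbitalRel G a b) a : Subgroup G).subgroupOf (stabilizer G a),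
      normal_subgroupOf_of_le_normalizer (h.stab_le_normalizer_Ko a), ?_, ?_, ?_⟩
    · exact hP.comap_of_injective (stabilizer G a).subtype (stabilizer G a).subtype_injective
    · rintro ⟨⟨g, hg⟩, hg'⟩
      rw [mem_subgroupOf] at hg'
      exact (mem_Qi.mp (mem_Ko.mp hg' b (orbitalRel_base a b))).1
    · exact h.relIndex_Ko_dvd hout hin a
  · push Not at hK
    have hne : (Ko (orbitalRel G a b) a : Subgroup G) ≠ ⊥ := by
      intro hb
      apply hK 2 Nat.prime_two
      rw [hb]
      exact IsPGroup.of_bot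
    have hO : ∀ p : ℕ, p.Prime → OpIn p (stabilizer G a) = ⊥ := by
      intro p hp
      have : Fact p.Prime := ⟨hp⟩
      exact h.OpIn_eq_bot (hK p hp) a
    have hK' : (Ko (fun x y => orbitalRel G a b y x) a : Subgroup G) = ⊥ := by
      by_contra hK'
      exact h.false_of_fitting (fitIn_eq_bot h hO) hne hK'
    have hdvd := h.op.relIndex_Ko_dvd hin hout a
    rw [hK', Subgroup.relIndex_bot_left] at hdvd
    refine ⟨2, Nat.prime_two, ⊥, inferInstance, IsPGroup.of_bot, ?_, ?_⟩
    · rintro ⟨g, hg⟩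
      rw [mem_bot] at hg
      simp [hg]
    · rwa [Subgroup.index_bot]

/-- **Wielandt's bound, second form.** -/
theorem card_dvd_of_not_constrained (hprim : IsPreprimitive G Ω) (a b : Ω) (d : ℕ)
    (hd : Nat.card (orbit (stabilizer G a) b) = d) (h2 : 2 ≤ d)
    (hnc : ∀ p : ℕ, p.Prime → generalizedFittingSubgroup (stabilizer G a) ≠ pCore p (stabilizer G a)) :
    Nat.card (stabilizer G a) ∣ d ! * ((d - 1)!) ^ d := by
  obtain ⟨h, hout, hin⟩ := data_of_hyp hprim a b hd h2
  have hnc' : ∀ p : ℕ, p.Prime → FsIn (stabilizer G a) ≠ OpIn p (stabilizer G a) := by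
    intro p hp e
    exact hnc p hp ((Subgroup.map_injective (stabilizer G a).subtype_injective) e)
  rcases h.eq_bot_or_eq_bot hnc' with hK | hK
  · have hdvd := h.relIndex_Ko_dvd hout hin a
    rwa [hK, Subgroup.relIndex_bot_left] at hdvd
  · have hdvd := h.op.relIndex_Ko_dvd hin hout a
    rwa [hK, Subgroup.relIndex_bot_left] at hdvd

/-- **Lemma L.** -/
theorem opIn_eq_bot_of_normal {R : Ω → Ω → Prop} (h : WData G R) {a b : Ω} (hr : R a b) {r : ℕ}
    [Fact r.Prime]
    (hAS : stabilizer G a ≤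
      normalizer ((OpIn r (stabilizer G a ⊓ stabilizer G b) : Subgroup G) : Set G)) :
    OpIn r (stabilizer G a ⊓ stabilizer G b) = ⊥ := by
  set A := stabilizer G a with hA
  set B := stabilizer G b with hB
  set C := A ⊓ B with hC
  set S := OpIn r C with hS
  have hSC : S ≤ C := OpIn_le r C
  have hSA : S ≤ A := hSC.trans inf_le_left
  have hSB : S ≤ B := hSC.trans inf_le_right
  have hSp : IsPGroup r S := OpIn_isPGroup r C
  by_contra hne
  have hN : normalizer (S : Set G) = A := h.normalizer_eq hSA hAS hne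
  obtain ⟨g, hg⟩ := h.exists_smul a b
  set T : Subgroup G := MulAut.conj g • S with hT
  have hTB : T ≤ B := by
    have := conj_mono (g := g) hSA
    rwa [hA, stab_conj, hg] at this
  have hBA : ∀ y ∈ B, g⁻¹ * y * g ∈ A := by
    intro y hy
    have hy' : y ∈ MulAut.conj g • A := by
      rw [hA, stab_conj, hg]; exact hy
    rwa [mem_conj] at hy'
  have hBT : B ≤ normalizer (T : Set G) := by
    rw [Subgroup.le_normalizer_iff]
    intro y hy t ht
    rw [hT, mem_conj] at ht ⊢
    have h1 := conj_mem_of_le_normalizer hAS (hBA y hy) ht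
    have e : g⁻¹ * (y * t * y⁻¹) * g = g⁻¹ * y * g * (g⁻¹ * t * g) * (g⁻¹ * y * g)⁻¹ := by group
    rw [e]
    exact h1
  have hTp : IsPGroup r T := isPGroup_conj hSp g
  have hPp : IsPGroup r (T ⊔ S : Subgroup G) :=
    hTp.to_sup_of_normal_left' hSp (hSB.trans hBT)
  have hTC : T ⊓ C ≤ S := by
    apply le_OpIn inf_le_right (hTp.to_le inf_le_left)
    rintro c hc y ⟨hy1, hy2⟩
    refine ⟨conj_mem_of_le_normalizer hBT hc.2 hy1, ?_⟩
    exact C.mul_mem (C.mul_mem hc hy2) (C.inv_mem hc)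
  have hle : T ≤ S := by
    by_contra hnot
    have hlt : S < T ⊔ S := lt_of_le_of_ne le_sup_right (fun e0 => hnot (e0 ▸ le_sup_left))
    obtain ⟨z, hz, hzS, hzN⟩ := exists_mem_normalizer hPp hlt
    obtain ⟨t, ht, s, hs, ez⟩ := exists_mul_of_mem_sup (hSB.trans hBT) hz
    rw [hN] at hzN
    have htA : t ∈ A := by
      have : t = z * s⁻¹ := by rw [ez]; group
      rw [this]
      exact mul_mem hzN (inv_mem (hSA hs))
    have htS : t ∈ S := hTC ⟨ht, htA, hTB ht⟩
    exact hzS (by rw [ez]; exact mul_mem htS hs)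
  have hTS : T = S := Subgroup.eq_of_le_of_card_ge hle (card_conj g S).ge
  apply hne
  apply h.eq_bot_of_both hr hSA hAS
  rw [← hTS]
  exact hBT

/-- **Wielandt's bound, third form.** -/
theorem fitting_free (hprim : IsPreprimitive G Ω) (a b : Ω) (d : ℕ)
    (hd : Nat.card (orbit (stabilizer G a) b) = d) (h2 : 2 ≤ d)
    (hF : fittingSubgroup ↥(((stabilizer G b).subgroupOf (stabilizer G a)).map
      (toPermHom (stabilizer G a) (orbit (stabilizer G a) b))) = ⊥) :
    fittingSubgroup ↥(stabilizer G a ⊓ stabilizer G b) = ⊥ ∧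
      Nat.card (stabilizer G a) ∣ d ! * ((d - 1)!) ^ d := by
  classical
  obtain ⟨h, hout, hin⟩ := data_of_hyp hprim a b hd h2
  set A := stabilizer G a with hA
  set B := stabilizer G b with hB
  set C := A ⊓ B with hC
  set f := toPermHom A (orbit A b) with hf
  set Qa : Subgroup G := A ⊓ fixingSubgroup G (orbit A b : Set Ω) with hQa
  have hmemQ : ∀ x : G, x ∈ Qa ↔ x ∈ A ∧ ∀ y ∈ orbit A b, x • y = y := by
    intro x
    rw [hQa, mem_inf, mem_fixingSubgroup_iff]
  have hQC : Qa ≤ C := by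
    intro x hx
    have hx' := (hmemQ x).1 hx
    exact ⟨hx'.1, hx'.2 b (mem_orbit_self b)⟩
  have hAQ : A ≤ normalizer (Qa : Set G) := by
    rw [Subgroup.le_normalizer_iff]
    intro g hg x hx
    have hx' := (hmemQ x).1 hx
    refine (hmemQ _).2 ⟨mul_mem (mul_mem hg hx'.1) (inv_mem hg), ?_⟩
    intro y hy
    have h1 : g⁻¹ • y ∈ orbit A b := by
      obtain ⟨k, rfl⟩ := hy
      refine ⟨(⟨g, hg⟩ : A)⁻¹ * k, ?_⟩
      show (((⟨g, hg⟩ : A)⁻¹ * k : A) : G) • b = g⁻¹ • (k • b)
      simp [mul_smul, Subgroup.smul_def]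
    rw [mul_smul, mul_smul, hx'.2 _ h1, smul_inv_smul]
  -- `F(C) ≤ Qa`
  have hFC : FitIn C ≤ Qa := by
    let I : Subgroup (Equiv.Perm (orbit A b)) := (B.subgroupOf A).map f
    let phi : C →* I := (f.comp (Subgroup.inclusion (inf_le_left : C ≤ A))).codRestrict I (by
      intro x
      exact ⟨_, (by rw [mem_subgroupOf]; exact x.2.2 : Subgroup.inclusion (inf_le_left : C ≤ A) x ∈ B.subgroupOf A), rfl⟩)
    have hphi : Function.Surjective phi := by
      rintro ⟨_, ⟨x, hx, rfl⟩⟩
      rw [SetLike.mem_coe, mem_subgroupOf] at hx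
      exact ⟨⟨x, x.2, hx⟩, rfl⟩
    have h1 : (fittingSubgroup C).map phi ≤ fittingSubgroup I := by
      have hn : ((fittingSubgroup C).map phi).Normal :=
        Subgroup.Normal.map inferInstance phi hphi
      have hnil0 : Group.IsNilpotent (fittingSubgroup C) := fittingSubgroup_isNilpotent
      have hnil : Group.IsNilpotent ((fittingSubgroup C).map phi) :=
        Group.nilpotent_of_surjective (phi.subgroupMap (fittingSubgroup C))
          (phi.subgroupMap_surjective _)
      exact le_sSup ⟨hn, hnil⟩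
    rw [hF, le_bot_iff, Subgroup.map_eq_bot_iff] at h1
    rintro _ ⟨x, hx, rfl⟩
    have h3 := h1 hx
    rw [MonoidHom.mem_ker] at h3
    have h4 : f (Subgroup.inclusion (inf_le_left : C ≤ A) x) = 1 := congrArg Subtype.val h3
    refine (hmemQ _).2 ⟨x.2.1, ?_⟩
    intro y hy
    have h5 := congrArg (fun p : Equiv.Perm (orbit A b) => ((p ⟨y, hy⟩ : orbit A b) : Ω)) h4
    exact h5
  have hO : ∀ r : ℕ, r.Prime → OpIn r C = ⊥ := by
    intro r hr
    have : Fact r.Prime := ⟨hr⟩
    have hSQ : OpIn r C ≤ Qa := (OpIn_le_FitIn r C).trans hFC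
    have heq : OpIn r C = OpIn r Qa := by
      apply le_antisymm
      · apply le_OpIn hSQ (OpIn_isPGroup r C)
        intro x hx y hy
        exact OpIn_conj (hQC hx) hy
      · apply le_OpIn ((OpIn_le r Qa).trans hQC) (OpIn_isPGroup r Qa)
        intro x hx y hy
        have hn := normalizer_le_normalizer_OpIn r Qa (hAQ hx.1)
        exact (mem_normalizer_iff.mp hn y).mp hy
    apply opIn_eq_bot_of_normal h (orbitalRel_base a b)
    rw [← hC, heq]
    exact hAQ.trans (normalizer_le_normalizer_OpIn r Qa)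
  refine ⟨?_, ?_⟩
  · have h1 : FitIn C = ⊥ := by
      rw [FitIn_eq_iSup]
      apply le_bot_iff.mp
      apply iSup_le
      intro q
      rw [hO q q.2]
    exact (Subgroup.map_eq_bot_iff_of_injective _ C.subtype_injective).mp h1
  · obtain ⟨p, hp, P, hPn, hPp, hPb, hPi⟩ := exists_normal_pGroup hprim a b d hd h2
    have hP : P.map A.subtype ≤ OpIn p C := by
      apply le_OpIn
      · rintro _ ⟨x, hx, rfl⟩
        exact ⟨x.2, hPb ⟨x, hx⟩⟩
      · exact hPp.map _
      · rintro c hc _ ⟨x, hx, rfl⟩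
        refine ⟨⟨c, hc.1⟩ * x * ⟨c, hc.1⟩⁻¹, hPn.conj_mem x hx _, by simp⟩
    rw [hO p hp, le_bot_iff, Subgroup.map_eq_bot_iff_of_injective _ A.subtype_injective] at hP
    rwa [hP, Subgroup.index_bot] at hPi

end

end Cfsg.Agent.Lib.WBound
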