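import Cfsg.Agent.Lib.WBound.Layer

/-!
# The index bound `[G_x : Ko R x] ∣ d! ((d-1)!)^d`.
-/

set_option autoImplicit false

namespace Cfsg.Agent.Lib.WBound

open Cfsg Subgroup MulAction
open scoped Nat

variable {G : Type*} [Group G] {Ω : Type*} [MulAction G Ω]

/-- The kernel of an action on a finite family of finite invariant sets has small index. -/
theorem relIndex_dvd_prod_factorial {ι : Type*} [Fintype ι] (H K : Subgroup G) (s : ι → Set Ω)
    [hfin : ∀ i, Finite (s i)]
    (hs : ∀ h ∈ H, ∀ i, ∀ y ∈ s i, h • y ∈ s i)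
    (hK : ∀ g ∈ H, g ∈ K ↔ ∀ i, ∀ y ∈ s i, g • y = y) :
    K.relIndex H ∣ ∏ i, (Nat.card (s i))! := by
  classical
  let S : ι → SubMulAction H Ω := fun i =>
    { carrier := s i
      smul_mem' := fun h y hy => hs h h.2 i y hy }
  have hfin' : ∀ i, Finite (S i) := fun i => hfin i
  let f : H →* (∀ i, Equiv.Perm (S i)) := MonoidHom.pi fun i => MulAction.toPermHom H (S i)
  have hker : K.subgroupOf H = f.ker := by
    ext g
    rw [mem_subgroupOf, MonoidHom.mem_ker, hK g g.2]
    constructor
    · intro hg
      funext i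
      ext ⟨y, hy⟩
      exact hg i y hy
    · intro hg i y hy
      have h1 := congrFun hg i
      have h2 := congrArg (fun p : Equiv.Perm (S i) => ((p ⟨y, hy⟩ : S i) : Ω)) h1
      exact h2
  have hidx : K.relIndex H = Nat.card f.range := by
    rw [Subgroup.relIndex, hker, Subgroup.index_ker]
  rw [hidx]
  have h1 : Nat.card f.range ∣ Nat.card (∀ i, Equiv.Perm (S i)) :=
    Subgroup.card_subgroup_dvd_card _
  have h2 : Nat.card (∀ i, Equiv.Perm (S i)) = ∏ i, (Nat.card (s i))! := by
    rw [Nat.card_pi]
    apply Finset.prod_congr rfl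
    intro i _
    rw [Nat.card_perm]
    rfl
  rwa [h2] at h1

section
variable {R : Ω → Ω → Prop} [Finite Ω]

/-- **The index bound.** -/
theorem WData.relIndex_Ko_dvd (h : WData G R) {d : ℕ} (hout : ∀ x, Nat.card {y // R x y} = d)
    (hin : ∀ x, Nat.card {y // R y x} = d) (x : Ω) :
    (Ko R x : Subgroup G).relIndex (stabilizer G x) ∣ d ! * ((d - 1)!) ^ d := by
  classical
  set Qo : Subgroup G := stabilizer G x ⊓ fixingSubgroup G {y | R x y} with hQo
  have hQoS : Qo ≤ stabilizer G x := inf_le_left
  have hKQ : (Ko R x : Subgroup G) ≤ Qo := by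
    intro g hg
    refine mem_inf.mpr ⟨h.Ko_le_stab x hg, ?_⟩
    rw [mem_fixingSubgroup_iff]
    intro y hy
    exact (mem_Qi.mp (mem_Ko.mp hg y hy)).1
  have h1 : Qo.relIndex (stabilizer G x) ∣ d ! := by
    have := relIndex_dvd_prod_factorial (ι := Unit) (stabilizer G x) Qo (fun _ => {y | R x y})
      (by
        intro k hk _ y hy
        have := h.inv k hy
        rwa [mem_stabilizer_iff.mp hk] at this)
      (by
        intro g hg
        rw [hQo, mem_inf, mem_fixingSubgroup_iff]
        simp [hg])
    simpa [show Nat.card ↥{y | R x y} = d from hout x] using this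
  have h2 : (Ko R x : Subgroup G).relIndex Qo ∣ ((d - 1)!) ^ d := by
    letI : Fintype {c // R x c} := Fintype.ofFinite _
    have := relIndex_dvd_prod_factorial (ι := {c // R x c}) Qo (Ko R x)
      (fun c => {y | R y c.1 ∧ y ≠ x})
      (by
        rintro k hk ⟨c, hc⟩ y ⟨hy1, hy2⟩
        have hkc : k • c = c := (mem_fixingSubgroup_iff _).mp hk.2 c hc
        have hkx : k • x = x := mem_stabilizer_iff.mp hk.1
        refine ⟨?_, ?_⟩
        · have := h.inv k hy1
          rwa [hkc] at this
        · intro e
          apply hy2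
          have : k • y = k • x := by rw [e, hkx]
          exact smul_left_cancel k this)
      (by
        intro g hg
        have hgx : g • x = x := mem_stabilizer_iff.mp hg.1
        constructor
        · rintro hk ⟨c, hc⟩ y ⟨hy1, _⟩
          exact (mem_Qi.mp (mem_Ko.mp hk c hc)).2 y hy1
        · intro hk
          rw [mem_Ko]
          intro c hc
          rw [mem_Qi]
          refine ⟨(mem_fixingSubgroup_iff _).mp hg.2 c hc, ?_⟩
          intro y hy
          by_cases e : y = x
          · rw [e, hgx]
          · exact hk ⟨c, hc⟩ y ⟨hy, e⟩)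
    have hcard : ∀ c : {c // R x c}, Nat.card ↥{y | R y c.1 ∧ y ≠ x} = d - 1 := by
      rintro ⟨c, hc⟩
      have e : {y | R y c ∧ y ≠ x} = {y | R y c} \ {x} := by
        ext y; simp
      have h3 : x ∈ {y | R y c} := hc
      rw [e, Nat.card_coe_set_eq, Set.ncard_sdiff_singleton_of_mem h3, ← Nat.card_coe_set_eq]
      have := hin c
      simp only [Set.coe_ofPred]
      rw [this]
    simp only [hcard] at this
    rw [Finset.prod_const, Finset.card_univ, Fintype.card_eq_nat_card, hout x] at this
    exact this
  have h3 := Subgroup.relIndex_mul_relIndex _ _ _ hKQ hQoS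
  rw [← h3, mul_comm]
  exact mul_dvd_mul h1 h2

end

end Cfsg.Agent.Lib.WBound
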