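import Cfsg.Agent.Lib.WBound.Orbital

/-!
# Layers of adjacent point stabilizers

Main results: `WData.false_of_fitting` (`F(G_x) = 1` for all `x` and both `Ko` nontrivial is impossible),
and `WData.eq_bot_or_eq_bot` (the version with the not-strongly-constrained hypothesis).
-/

set_option autoImplicit false

namespace Cfsg.Agent.Lib.WBound

open Cfsg Subgroup MulAction
open Cfsg.Agent.Lib.Components.Basic Cfsg.Agent.Lib.Components.Layer
open Cfsg.Agent.Lib.Components.GenFitting Cfsg.Agent.Lib.Components.Rel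
open Cfsg.Agent.Lib.Subnormal.Basic Cfsg.Agent.Lib.Core.Basic
open Cfsg.Agent.Lib.CharP.Basic Cfsg.Agent.Lib.Coprime.Action Cfsg.Agent.Lib.Components.Bender
open Cfsg.Agent.Lib.Components.CommAct
open scoped commutatorElement Pointwise

variable {G : Type*} [Group G] {Ω : Type*} [MulAction G Ω]

theorem commutator_le_inf' {L X Y E : Subgroup G} (hLX : L ≤ normalizer (X : Set G)) (hYX : Y ≤ X)
    (hLE : L ≤ E) (hYE : Y ≤ normalizer (E : Set G)) : ⁅L, Y⁆ ≤ X ⊓ E := by
  rw [commutator_le]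
  intro u hu v hv
  refine ⟨?_, ?_⟩
  · rw [commutatorElement_def]
    exact X.mul_mem ((mem_normalizer_iff.mp (hLX hu) v).mp (hYX hv)) (X.inv_mem (hYX hv))
  · have e : ⁅u, v⁆ = u * (v * u⁻¹ * v⁻¹) := by rw [commutatorElement_def]; group
    rw [e]
    exact E.mul_mem (hLE hu) ((mem_normalizer_iff.mp (hYE hv) _).mp (E.inv_mem (hLE hu)))

theorem FitIn_isNilpotent [Finite G] (T : Subgroup G) : Group.IsNilpotent (FitIn T) := by
  have h : Group.IsNilpotent (fittingSubgroup T) := fittingSubgroup_isNilpotent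
  exact Group.nilpotent_of_mulEquiv
    ((fittingSubgroup T).equivMapOfInjective T.subtype T.subtype_injective)

theorem LayerIn_perfect (T : Subgroup G) : ⁅LayerIn T, LayerIn T⁆ = LayerIn T := by
  have := congrArg (Subgroup.map T.subtype) (layer_perfect (G := T))
  rwa [Subgroup.map_commutator] at this

theorem OpIn_le_FitIn' [Finite G] {p : ℕ} (hp : p.Prime) (T : Subgroup G) : OpIn p T ≤ FitIn T :=
  haveI : Fact p.Prime := ⟨hp⟩
  OpIn_le_FitIn p T

theorem commutator_LayerIn_FitIn' (T : Subgroup G) : ⁅FitIn T, LayerIn T⁆ = ⊥ := by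
  rw [commutator_comm]; exact commutator_LayerIn_FitIn T

theorem le_of_FsIn_eq_bot [Finite G] {T : Subgroup G} (h1 : FsIn T = ⊥) : T = ⊥ := by
  have h2 := inf_centralizer_FsIn_le T
  rw [h1] at h2
  apply le_bot_iff.mp
  refine le_trans (le_inf le_rfl ?_) h2
  intro g _
  rw [mem_centralizer_iff]
  intro y hy
  have hy' : y = 1 := by simpa using hy
  simp [hy']

section
variable {R : Ω → Ω → Prop} [Finite G]

theorem SN_inf_LayerIn {X A B : Subgroup G} (hXA : A ≤ normalizer (X : Set G))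
    (hEB : LayerIn B ≤ A) : SN (X ⊓ LayerIn B) B :=
  SN.trans (SN.of_le_normalizer inf_le_right (fun _ hu =>
      normalizer_inf_of_mem (hXA (hEB hu)) (le_normalizer hu)))
    (SN.of_le_normalizer (LayerIn_le B) (le_normalizer_LayerIn B))

/-- **Lemma E.** -/
theorem WData.layer_eq_bot (h : WData G R) {x c : Ω} (hr : R x c)
    (hEA : LayerIn (stabilizer G x) ≤ stabilizer G c)
    (hEB : LayerIn (stabilizer G c) ≤ stabilizer G x)
    (hFA : FitIn (stabilizer G x) ≤ stabilizer G c) : LayerIn (stabilizer G x) = ⊥ := by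
  set A := stabilizer G x with hA
  set B := stabilizer G c with hB
  have key : ∀ L : Subgroup G, IsCompIn L B → L ≤ LayerIn A := by
    intro L hL
    have hLE : L ≤ LayerIn B := le_LayerIn hL
    have hLA : L ≤ A := hLE.trans hEB
    have hperf : ⁅L, L⁆ = L := commutator_self_of_quasisimple hL.2
    have hle1 : ∀ X : Subgroup G, A ≤ normalizer (X : Set G) → X ≤ B → ⁅L, X⁆ ≤ X ⊓ LayerIn B :=
      fun X hXA hXB => commutator_le_inf' (hLA.trans hXA) le_rfl hLE (hXB.trans (le_normalizer_LayerIn B))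
    -- `L` centralizes `F(A)`
    have ha : ⁅L, FitIn A⁆ = ⊥ := by
      apply commutator_eq_bot_of_perfect hperf
      have h1 := hle1 _ (le_normalizer_FitIn A) hFA
      have hSN := SN_inf_LayerIn (le_normalizer_FitIn A) hEB
      have hnil : Group.IsNilpotent (FitIn A ⊓ LayerIn B : Subgroup G) :=
        nilpotent_of_subgroup_le inf_le_left (FitIn_isNilpotent A)
      have h2 := le_FitIn_of_SN hSN hnil
      rw [eq_bot_iff, ← commutator_LayerIn_FitIn' B]
      exact commutator_mono (h1.trans h2) hLE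
    -- `L ≤ E(A) ∩ E(B)`, or `L` centralizes `E(A)`
    have hSNW := SN_inf_LayerIn (le_normalizer_LayerIn A) hEB
    rcases hL.le_or_commutator_of_SN hSNW with h1 | h1
    · exact h1.trans inf_le_left
    · exfalso
      have hb : ⁅L, LayerIn A⁆ = ⊥ := by
        apply commutator_eq_bot_of_perfect hperf
        have h2 := hle1 _ (le_normalizer_LayerIn A) hEA
        rw [eq_bot_iff, ← h1, commutator_comm]
        exact commutator_mono le_rfl h2
      have hLC : FsIn A ≤ centralizer (L : Set G) := by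
        rw [FsIn_eq]
        apply sup_le
        · rw [← le_centralizer_iff]
          exact commutator_eq_bot_iff_le_centralizer.mp hb
        · rw [← le_centralizer_iff]
          exact commutator_eq_bot_iff_le_centralizer.mp ha
      have hLF : L ≤ FsIn A := by
        apply (le_inf hLA _).trans (inf_centralizer_FsIn_le A)
        rw [le_centralizer_iff]
        exact hLC
      have : ⁅L, L⁆ = ⊥ := by
        rw [commutator_eq_bot_iff_le_centralizer, le_centralizer_iff]
        exact hLF.trans hLC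
      rw [hperf] at this
      exact ne_bot_of_quasisimple hL.2 this
  have hle : LayerIn B ≤ LayerIn A := by
    rw [LayerIn_eq B]
    exact sSup_le key
  have hcard : Nat.card (LayerIn A) = Nat.card (LayerIn B) := by
    obtain ⟨g, hg⟩ := h.exists_smul c x
    rw [hA, ← hg, ← stab_conj, ← LayerIn_conj_eq, card_conj]
  have heq : LayerIn B = LayerIn A := Subgroup.eq_of_le_of_card_ge hle hcard.le
  apply h.eq_bot_of_both hr (LayerIn_le A) (le_normalizer_LayerIn A)
  rw [← heq]
  exact le_normalizer_LayerIn B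

/-- **Lemma B.** -/
theorem WData.layer_le_of_fitting (h : WData G R) {x c : Ω} (hr : R x c)
    (hF : FitIn (stabilizer G x) = ⊥) (hK : (Ko R x : Subgroup G) ≠ ⊥) :
    LayerIn (stabilizer G c) ≤ stabilizer G x := by
  set K : Subgroup G := Ko R x with hKdef
  have hKle : K ≤ stabilizer G x := h.Ko_le_stab x
  have hKn : stabilizer G x ≤ normalizer (K : Set G) := h.stab_le_normalizer_Ko x
  have hFK : FitIn K = ⊥ := by
    have h1 : SN (FitIn K) (stabilizer G x) :=
      SN.of_le_normalizer ((FitIn_le K).trans hKle) (hKn.trans (normalizer_le_normalizer_FitIn K))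
    have h2 := le_FitIn_of_SN h1 (FitIn_isNilpotent K)
    rw [hF] at h2
    exact le_bot_iff.mp h2
  have hV : LayerIn K ≠ ⊥ := by
    intro hV
    apply hK
    exact le_of_FsIn_eq_bot (by rw [FsIn_eq, hV, hFK, bot_sup_eq])
  have hVn : stabilizer G x ≤ normalizer (LayerIn K : Set G) :=
    hKn.trans (normalizer_le_normalizer_LayerIn K)
  have hVle : LayerIn K ≤ stabilizer G x := (LayerIn_le K).trans hKle
  have hN := h.normalizer_eq hVle hVn hV
  have hSN : SN (LayerIn K) (stabilizer G c) :=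
    SN.trans (SN.of_le_normalizer (LayerIn_le K) (le_normalizer_LayerIn K)) (h.Ko_SN hr)
  rw [LayerIn_eq]
  apply sSup_le
  intro L hL
  rcases IsCompIn.le_or_commutator_of_SN hL hSN with h1 | h1
  · exact h1.trans hVle
  · rw [← hN]
    exact (commutator_eq_bot_iff_le_centralizer.mp h1).trans (centralizer_le_normalizer _)

theorem WData.layer_le_of_isPGroup (h : WData G R) {x c : Ω} (hr : R x c) {p : ℕ} (hp : p.Prime)
    (hP : IsPGroup p (Ko R x : Subgroup G)) (hK : (Ko R x : Subgroup G) ≠ ⊥) :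
    LayerIn (stabilizer G c) ≤ stabilizer G x := by
  have h1 : (Ko R x : Subgroup G) ≤ FitIn (stabilizer G c) :=
    (le_OpIn_of_SN (h.Ko_SN hr) hP).trans (OpIn_le_FitIn' hp _)
  have hN := h.normalizer_eq (h.Ko_le_stab x) (h.stab_le_normalizer_Ko x) hK
  rw [← hN]
  refine le_trans ?_ (centralizer_le_normalizer _)
  rw [← commutator_eq_bot_iff_le_centralizer, eq_bot_iff, ← commutator_LayerIn_FitIn (stabilizer G c)]
  exact commutator_mono le_rfl h1

theorem WData.Ko_ne_bot (h : WData G R) {x : Ω} (hK : (Ko R x : Subgroup G) ≠ ⊥) (y : Ω) :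
    (Ko R y : Subgroup G) ≠ ⊥ := by
  intro hy
  obtain ⟨g, hg⟩ := h.exists_smul y x
  apply hK
  rw [← hg, ← h.Ko_conj, hy]
  simp

/-- With `F(G_x) = 1` for all `x`, at least one of the two `Ko` is trivial. -/
theorem WData.false_of_fitting (h : WData G R) (hF : ∀ x : Ω, FitIn (stabilizer G x) = ⊥)
    {a : Ω} (hK : (Ko R a : Subgroup G) ≠ ⊥) (hK' : (Ko (fun x y => R y x) a : Subgroup G) ≠ ⊥) :
    False := by
  obtain ⟨c, hc⟩ := h.out a
  have h1 := h.layer_le_of_fitting hc (hF a) hK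
  have h2 := h.op.layer_le_of_fitting (x := c) (c := a) hc (hF c) (h.op.Ko_ne_bot hK' c)
  have h3 := h.layer_eq_bot hc h2 h1 (by rw [hF a]; exact bot_le)
  have h4 : stabilizer G a = ⊥ := le_of_FsIn_eq_bot (by rw [FsIn_eq, h3, hF a, bot_sup_eq])
  apply hK
  apply le_bot_iff.mp
  rw [← h4]
  exact h.Ko_le_stab a

/-- `O_p(A) ≤ B`. -/
theorem WData.OpIn_le_stab (h : WData G R) {x c : Ω} (hr : R x c) {p : ℕ} (hp : p.Prime)
    {S' : Subgroup G} (hS'O : S' ≤ OpIn p (stabilizer G x)) (hS'c : S' ≤ stabilizer G c)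
    (hS'n : stabilizer G c ≤ normalizer (S' : Set G)) (hS'ne : S' ≠ ⊥)
    (hEB : LayerIn (stabilizer G c) ≤ stabilizer G x) (hEne : LayerIn (stabilizer G c) ≠ ⊥) :
    OpIn p (stabilizer G x) ≤ stabilizer G c := by
  haveI : Fact p.Prime := ⟨hp⟩
  set A := stabilizer G x with hA
  set B := stabilizer G c with hB
  set O := OpIn p A with hO
  set U := LayerIn B with hU
  have hOp : IsPGroup p O := OpIn_isPGroup p A
  have hUperf : ⁅U, U⁆ = U := LayerIn_perfect B
  have hUO : U ≤ normalizer (O : Set G) := hEB.trans (le_normalizer_OpIn' p A)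
  have hUnB : B ≤ normalizer (U : Set G) := le_normalizer_LayerIn B
  -- `U` centralizes `O ∩ B`
  have hc1 : ⁅U, O ⊓ B⁆ = ⊥ := by
    apply commutator_eq_bot_of_perfect hUperf
    have h1 : ⁅U, O ⊓ B⁆ ≤ O ⊓ U :=
      commutator_le_inf' hUO inf_le_left le_rfl (inf_le_right.trans hUnB)
    have hSN : SN (O ⊓ U) B := SN_inf_LayerIn (le_normalizer_OpIn' p A) hEB
    have h2 : O ⊓ U ≤ FitIn B :=
      (le_OpIn_of_SN hSN (hOp.to_le inf_le_left)).trans (OpIn_le_FitIn' hp B)
    rw [eq_bot_iff, ← commutator_LayerIn_FitIn' B]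
    exact commutator_mono (h1.trans h2) le_rfl
  have hUC : U ≤ centralizer ((O ⊓ B : Subgroup G) : Set G) :=
    commutator_eq_bot_iff_le_centralizer.mp hc1
  have hNS : normalizer (S' : Set G) = B := h.normalizer_eq hS'c hS'n hS'ne
  have hNU : normalizer (U : Set G) = B := h.normalizer_eq (LayerIn_le B) hUnB hEne
  by_contra hnot
  have hlt : O ⊓ B < O := lt_of_le_of_ne inf_le_left (fun e => hnot (e ▸ inf_le_right))
  obtain ⟨z, hzO, hzn, hzN⟩ := exists_mem_normalizer hOp hlt
  -- the subgroup `D = O ∩ N(O ∩ B)`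
  set D : Subgroup G := O ⊓ normalizer ((O ⊓ B : Subgroup G) : Set G) with hD
  have hS'1 : S' ≤ O ⊓ B := le_inf hS'O hS'c
  -- conjugates of elements of `U` by elements of `D` lie in `B`
  have hconj : ∀ z' ∈ D, ∀ v ∈ U, z' * v * z'⁻¹ ∈ B := by
    intro z' hz' v hv
    rw [← hNS]
    apply centralizer_le_normalizer
    rw [mem_centralizer_iff]
    intro s hs
    have h1 : z'⁻¹ * s * z' ∈ O ⊓ B := by
      have := (mem_normalizer_iff.mp (inv_mem hz'.2) s).mp (hS'1 hs)
      simpa using this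
    have h2 := mem_centralizer_iff.mp (hUC hv) _ h1
    have e1 : s * (z' * v * z'⁻¹) = z' * ((z'⁻¹ * s * z') * v) * z'⁻¹ := by group
    have e2 : z' * v * z'⁻¹ * s = z' * (v * (z'⁻¹ * s * z')) * z'⁻¹ := by group
    rw [e1, e2, h2]
  have hc2 : ⁅U, D⁆ ≤ O ⊓ B := by
    rw [commutator_le]
    intro u hu z' hz'
    refine ⟨?_, ?_⟩
    · have e : ⁅u, z'⁆ = (u * z' * u⁻¹) * z'⁻¹ := by rw [commutatorElement_def]
      rw [e]
      exact O.mul_mem ((mem_normalizer_iff.mp (hUO hu) z').mp hz'.1) (O.inv_mem hz'.1)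
    · have e : ⁅u, z'⁆ = u * (z' * u⁻¹ * z'⁻¹) := by rw [commutatorElement_def]; group
      rw [e]
      exact B.mul_mem (LayerIn_le B hu) (hconj z' hz' _ (U.inv_mem hu))
  have hc3 : ⁅U, D⁆ = ⊥ := by
    apply commutator_eq_bot_of_perfect hUperf
    rw [eq_bot_iff, ← hc1, commutator_comm U (O ⊓ B)]
    exact commutator_mono hc2 le_rfl
  have hzD : z ∈ D := ⟨hzO, hzN⟩
  have hzC : z ∈ centralizer (U : Set G) := by
    rw [mem_centralizer_iff]
    intro u hu
    have := commutator_mem_commutator hu hzD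
    rw [hc3, mem_bot, commutatorElement_eq_one_iff_mul_comm] at this
    exact this
  exact hzn ⟨hzO, by rw [← hNU]; exact centralizer_le_normalizer _ hzC⟩

/-- **Step A.** -/
theorem WData.false_of_isPGroup (h : WData G R) {a : Ω} {p : ℕ} (hp : p.Prime)
    (hO : OpIn p (stabilizer G a) ≠ ⊥) (hK : (Ko R a : Subgroup G) ≠ ⊥)
    (hK' : (Ko (fun x y => R y x) a : Subgroup G) ≠ ⊥)
    (hnc : FsIn (stabilizer G a) ≠ OpIn p (stabilizer G a)) : False := by
  haveI : Fact p.Prime := ⟨hp⟩
  have hPall : ∀ x : Ω, IsPGroup p (Ko R x : Subgroup G) := fun x => by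
    by_contra hx
    exact hO (h.OpIn_eq_bot hx a)
  have hPall' : ∀ x : Ω, IsPGroup p (Ko (fun x y => R y x) x : Subgroup G) := fun x => by
    by_contra hx
    exact hO (h.op.OpIn_eq_bot hx a)
  have hFit : ∀ x : Ω, FitIn (stabilizer G x) = OpIn p (stabilizer G x) := by
    intro x
    apply le_antisymm _ (OpIn_le_FitIn' hp _)
    rw [FitIn_eq_iSup]
    apply iSup_le
    intro q
    by_cases hq : (q : ℕ) = p
    · rw [hq]
    · haveI : Fact (q : ℕ).Prime := ⟨q.2⟩
      have : OpIn (q : ℕ) (stabilizer G x) = ⊥ := by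
        apply h.OpIn_eq_bot (x := a)
        intro hqa
        apply hK
        rw [eq_bot_iff]
        intro y hy
        obtain ⟨k, hk⟩ := pow_eq_one_of_isPGroup (hPall a) hy
        obtain ⟨k', hk'⟩ := pow_eq_one_of_isPGroup hqa hy
        have h1 := coprime_orderOf_of_pow_eq_one hp q.2 (Ne.symm hq) hk
        exact mem_bot.mpr (eq_one_of_pow_and_coprime h1 hk')
      rw [this]
      exact bot_le
  have hE : LayerIn (stabilizer G a) ≠ ⊥ := by
    intro hE
    apply hnc
    rw [FsIn_eq, hE, bot_sup_eq, hFit]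
  obtain ⟨c, hc⟩ := h.out a
  have hEc : LayerIn (stabilizer G c) ≠ ⊥ := by
    intro hE'
    apply hE
    obtain ⟨g, hg⟩ := h.exists_smul c a
    rw [← hg, ← stab_conj, ← LayerIn_conj_eq, hE']
    simp
  have hK'c : (Ko (fun x y => R y x) c : Subgroup G) ≠ ⊥ := h.op.Ko_ne_bot hK' c
  have h1 := h.layer_le_of_isPGroup hc hp (hPall a) hK
  have h2 := h.op.layer_le_of_isPGroup (x := c) (c := a) hc hp (hPall' c) hK'c
  have h3 : OpIn p (stabilizer G a) ≤ stabilizer G c :=
    h.OpIn_le_stab hc hp (le_OpIn_of_SN (h.op.Ko_SN (x := c) (c := a) hc) (hPall' c))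
      (h.op.Ko_le_stab c) (h.op.stab_le_normalizer_Ko c) hK'c h1 hEc
  exact hE (h.layer_eq_bot hc h2 h1 (by rw [hFit]; exact h3))

/-- **The alternative**: if `G_a` is not strongly constrained, one of the two `Ko` is trivial. -/
theorem WData.eq_bot_or_eq_bot (h : WData G R) {a : Ω}
    (hnc : ∀ p : ℕ, p.Prime → FsIn (stabilizer G a) ≠ OpIn p (stabilizer G a)) :
    (Ko R a : Subgroup G) = ⊥ ∨ (Ko (fun x y => R y x) a : Subgroup G) = ⊥ := by
  by_contra hcon
  push Not at hcon
  obtain ⟨hK, hK'⟩ := hcon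
  by_cases hF : ∀ p : ℕ, p.Prime → OpIn p (stabilizer G a) = ⊥
  · apply h.false_of_fitting _ hK hK'
    intro x
    obtain ⟨g, hg⟩ := h.exists_smul a x
    rw [FitIn_eq_iSup]
    apply le_bot_iff.mp
    apply iSup_le
    intro q
    rw [← hg, ← stab_conj, ← OpIn_conj_eq, hF q q.2]
    simp
  · push Not at hF
    obtain ⟨p, hp, hO⟩ := hF
    exact h.false_of_isPGroup hp hO hK hK' (hnc p hp)

end

end Cfsg.Agent.Lib.WBound
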