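import Cfsg.Agent.Lib.WBound.Basic

/-!
# Orbitals of a primitive group and the subgroups `Qi`, `Ko`

`R` is a `G`-invariant binary relation on `Ω`, edge-transitive under `G`. For a vertex `c`,
`Qi R c` is the pointwise stabilizer of `c` and of its in-neighbours; for a vertex `x`,
`Ko R x` is the intersection of the `Qi R c` over the out-neighbours `c` of `x`.

Main result: `OpIn_eq_bot`: if `Ko R x` is not an `r`-group then `O_r(G_x) = 1`.
-/

set_option autoImplicit false

namespace Cfsg.Agent.Lib.WBound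

open Cfsg Subgroup MulAction
open Cfsg.Agent.Lib.Components.Basic Cfsg.Agent.Lib.Components.Layer
open Cfsg.Agent.Lib.Components.GenFitting Cfsg.Agent.Lib.Components.Rel
open Cfsg.Agent.Lib.Subnormal.Basic Cfsg.Agent.Lib.Core.Basic
open Cfsg.Agent.Lib.CharP.Basic Cfsg.Agent.Lib.Coprime.Action Cfsg.Agent.Lib.Components.Bender
open scoped commutatorElement Pointwise

variable {G : Type*} [Group G] {Ω : Type*} [MulAction G Ω]

/-- Hypotheses on the orbital `R`. -/
structure WData (G : Type*) {Ω : Type*} [Group G] [MulAction G Ω] (R : Ω → Ω → Prop) : Prop where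
  coatom : ∀ x : Ω, IsCoatom (stabilizer G x)
  coreFree : ∀ (x : Ω) (X : Subgroup G), X.Normal → X ≤ stabilizer G x → X = ⊥
  inv : ∀ (g : G) {x y : Ω}, R x y → R (g • x) (g • y)
  edge : ∀ {x y x' y' : Ω}, R x y → R x' y' → ∃ g : G, g • x = x' ∧ g • y = y'
  ne : ∀ {x y : Ω}, R x y → stabilizer G x ≠ stabilizer G y
  out : ∀ x : Ω, ∃ y, R x y
  inn : ∀ x : Ω, ∃ y, R y x

/-- The same for the reversed relation. -/
theorem WData.op {R : Ω → Ω → Prop} (h : WData G R) : WData G (fun x y => R y x) where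
  coatom := h.coatom
  coreFree := h.coreFree
  inv g _ _ hr := h.inv g hr
  edge h1 h2 := by
    obtain ⟨g, h3, h4⟩ := h.edge h1 h2
    exact ⟨g, h4, h3⟩
  ne hr := (h.ne hr).symm
  out := h.inn
  inn := h.out

theorem stab_conj (g : G) (x : Ω) :
    MulAut.conj g • stabilizer G x = stabilizer G (g • x) := by
  ext y
  rw [mem_conj, mem_stabilizer_iff, mem_stabilizer_iff, mul_smul, mul_smul, inv_smul_eq_iff]

/-- Pointwise stabilizer of `c` and its in-neighbours. -/
def Qi (R : Ω → Ω → Prop) (c : Ω) : Subgroup G :=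
  stabilizer G c ⊓ fixingSubgroup G {y | R y c}

/-- The intersection of the `Qi R c` for the out-neighbours `c` of `x`. -/
def Ko (R : Ω → Ω → Prop) (x : Ω) : Subgroup G := ⨅ c : {c // R x c}, Qi R c

theorem mem_Qi {R : Ω → Ω → Prop} {c : Ω} {g : G} :
    g ∈ (Qi R c : Subgroup G) ↔ g • c = c ∧ ∀ y, R y c → g • y = y := by
  simp [Qi, mem_inf, mem_fixingSubgroup_iff, mem_stabilizer_iff]

theorem mem_Ko {R : Ω → Ω → Prop} {x : Ω} {g : G} :
    g ∈ (Ko R x : Subgroup G) ↔ ∀ c, R x c → g ∈ (Qi R c : Subgroup G) := by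
  simp [Ko, mem_iInf]

section
variable {R : Ω → Ω → Prop}

theorem Qi_le_stab (c : Ω) : (Qi R c : Subgroup G) ≤ stabilizer G c := inf_le_left

theorem Qi_le_stab' {y c : Ω} (hr : R y c) : (Qi R c : Subgroup G) ≤ stabilizer G y :=
  fun _ hg => (mem_Qi.mp hg).2 y hr

theorem Ko_le_Qi {x c : Ω} (hr : R x c) : (Ko R x : Subgroup G) ≤ Qi R c :=
  fun _ hg => mem_Ko.mp hg c hr

theorem WData.Ko_le_stab (h : WData G R) (x : Ω) : (Ko R x : Subgroup G) ≤ stabilizer G x := by
  obtain ⟨c, hc⟩ := h.out x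
  exact (Ko_le_Qi hc).trans (Qi_le_stab' hc)

theorem WData.Qi_conj (h : WData G R) (g : G) (c : Ω) :
    MulAut.conj g • (Qi R c : Subgroup G) = Qi R (g • c) := by
  ext y
  rw [mem_conj, mem_Qi, mem_Qi, mul_smul, mul_smul, inv_smul_eq_iff]
  refine and_congr_right fun _ => ⟨fun hy z hz => ?_, fun hy z hz => ?_⟩
  · have h1 := hy (g⁻¹ • z) (by simpa using h.inv g⁻¹ hz)
    rw [mul_smul, mul_smul, smul_inv_smul, inv_smul_eq_iff] at h1
    rwa [smul_inv_smul] at h1
  · rw [mul_smul, mul_smul, inv_smul_eq_iff]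
    exact hy _ (h.inv g hz)

theorem WData.Ko_conj (h : WData G R) (g : G) (x : Ω) :
    MulAut.conj g • (Ko R x : Subgroup G) = Ko R (g • x) := by
  ext y
  rw [mem_conj, mem_Ko, mem_Ko]
  constructor
  · intro hy c hc
    have h1 := hy (g⁻¹ • c) (by simpa using h.inv g⁻¹ hc)
    have h2 : MulAut.conj g • (Qi R (g⁻¹ • c) : Subgroup G) = Qi R c := by
      rw [h.Qi_conj, smul_inv_smul]
    rw [← h2, mem_conj]
    exact h1
  · intro hy c hc
    have h1 := hy (g • c) (h.inv g hc)
    rw [← h.Qi_conj, mem_conj] at h1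
    exact h1

theorem WData.stab_le_normalizer_Qi (h : WData G R) (c : Ω) :
    stabilizer G c ≤ normalizer ((Qi R c : Subgroup G) : Set G) := by
  intro g hg
  apply mem_normalizer_of_conj_eq
  rw [h.Qi_conj, mem_stabilizer_iff.mp hg]

theorem WData.stab_le_normalizer_Ko (h : WData G R) (x : Ω) :
    stabilizer G x ≤ normalizer ((Ko R x : Subgroup G) : Set G) := by
  intro g hg
  apply mem_normalizer_of_conj_eq
  rw [h.Ko_conj, mem_stabilizer_iff.mp hg]

theorem WData.Ko_SN (h : WData G R) {x c : Ω} (hr : R x c) :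
    SN (Ko R x : Subgroup G) (stabilizer G c) :=
  SN.trans (SN.of_le_normalizer (Ko_le_Qi hr) ((Qi_le_stab' hr).trans (h.stab_le_normalizer_Ko x)))
    (SN.of_le_normalizer (Qi_le_stab c) (h.stab_le_normalizer_Qi c))

/-- **Lemma 0.** -/
theorem WData.normalizer_eq (h : WData G R) {x : Ω} {X : Subgroup G} (hX : X ≤ stabilizer G x)
    (hn : stabilizer G x ≤ normalizer (X : Set G)) (hne : X ≠ ⊥) :
    normalizer (X : Set G) = stabilizer G x := by
  rcases eq_or_lt_of_le hn with e | hlt
  · exact e.symm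
  · have htop := (h.coatom x).2 _ hlt
    exfalso
    apply hne
    apply h.coreFree x X _ hX
    exact normalizer_eq_top_iff.mp htop

/-- **Lemma 0'.** -/
theorem WData.eq_bot_of_both (h : WData G R) {x y : Ω} (hr : R x y) {X : Subgroup G}
    (hX : X ≤ stabilizer G x) (hnx : stabilizer G x ≤ normalizer (X : Set G))
    (hny : stabilizer G y ≤ normalizer (X : Set G)) : X = ⊥ := by
  by_contra hne
  have hN := h.normalizer_eq hX hnx hne
  rw [hN] at hny
  rcases eq_or_lt_of_le hny with e | hlt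
  · exact h.ne hr e.symm
  · have htop := (h.coatom y).2 _ hlt
    exact (h.coatom x).1 htop

theorem WData.exists_smul (h : WData G R) (x y : Ω) : ∃ g : G, g • x = y := by
  obtain ⟨x', hx⟩ := h.out x
  obtain ⟨y', hy⟩ := h.out y
  obtain ⟨g, hg, _⟩ := h.edge hx hy
  exact ⟨g, hg⟩

section Main

variable [Finite G] {r : ℕ} [Fact r.Prime]

theorem WData.stab_le_normalizer_rGen (h : WData G R) (x : Ω) :
    stabilizer G x ≤ normalizer ((rGen r (Ko R x) : Subgroup G) : Set G) := by
  intro g hg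
  apply mem_normalizer_of_conj_eq
  rw [conj_rGen, h.Ko_conj, mem_stabilizer_iff.mp hg]

theorem normalizer_inf_of_mem {A B : Subgroup G} {x : G} (hA : x ∈ normalizer (A : Set G))
    (hB : x ∈ normalizer (B : Set G)) : x ∈ normalizer ((A ⊓ B : Subgroup G) : Set G) := by
  rw [mem_normalizer_iff] at hA hB ⊢
  intro y
  rw [mem_inf, mem_inf, hA y, hB y]

/-- **Main lemma**: if `Ko R x` is not an `r`-group then `O_r(G_c) = 1` for all `c`. -/
theorem WData.OpIn_eq_bot (h : WData G R) {x : Ω} (hK : ¬ IsPGroup r (Ko R x : Subgroup G)) (c : Ω) :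
    OpIn r (stabilizer G c) = ⊥ := by
  classical
  have hKall : ∀ y : Ω, ¬ IsPGroup r (Ko R y : Subgroup G) := by
    intro y hy
    obtain ⟨g, hg⟩ := h.exists_smul y x
    apply hK
    rw [← hg, ← h.Ko_conj]
    exact isPGroup_conj hy g
  have hM : ∀ y : Ω, rGen r (Ko R y : Subgroup G) ≠ ⊥ := fun y => rGen_ne_bot (hKall y)
  have hMle : ∀ y : Ω, rGen r (Ko R y : Subgroup G) ≤ stabilizer G y :=
    fun y => (rGen_le r _).trans (h.Ko_le_stab y)
  have hN : ∀ y : Ω, normalizer ((rGen r (Ko R y : Subgroup G) : Subgroup G) : Set G) = stabilizer G y :=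
    fun y => h.normalizer_eq (hMle y) (h.stab_le_normalizer_rGen y) (hM y)
  -- Step 1
  have step1 : ∀ {y c : Ω}, R y c → OpIn r (stabilizer G c) ≤ stabilizer G y := by
    intro y c hr
    have := le_normalizer_rGen (h.Ko_SN hr) (OpIn_le r _) (le_normalizer_OpIn' r _) (OpIn_isPGroup r _)
    rwa [hN y] at this
  -- Step 2
  have step2 : ∀ {e c a : Ω}, R e c → R a c →
      OpIn r (stabilizer G e) ⊓ stabilizer G c ≤ stabilizer G a := by
    intro e c a he ha t ht
    rw [← hN a]
    apply mem_normalizer_of_conj_eq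
    have hle : rGen r (Ko R a : Subgroup G) ≤ MulAut.conj t • rGen r (Ko R a : Subgroup G) := by
      rw [conj_rGen, h.Ko_conj]
      apply (closure_le _).2
      rintro x ⟨hx, hc⟩
      refine mem_rGen ?_ hc
      have hxQ : x ∈ (Qi R c : Subgroup G) := Ko_le_Qi ha hx
      have hxe : x ∈ stabilizer G e := Qi_le_stab' he hxQ
      have hxc : x ∈ stabilizer G c := Qi_le_stab c hxQ
      set T₀ : Subgroup G := OpIn r (stabilizer G e) ⊓ stabilizer G c with hT₀
      have hA : zpowers x ≤ normalizer (T₀ : Set G) := by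
        rw [zpowers_le]
        apply normalizer_inf_of_mem (le_normalizer_OpIn' r _ hxe)
        exact le_normalizer hxc
      have hT₀p : IsPGroup r T₀ := (OpIn_isPGroup r _).to_le inf_le_left
      have hcop : (Nat.card (zpowers x)).Coprime (Nat.card T₀) := by
        rw [Nat.card_zpowers]
        obtain ⟨n, hn⟩ := IsPGroup.iff_card.1 hT₀p
        rw [hn]
        exact hc.pow_right n
      have hsolv : Group.IsSolvable (zpowers x) ∨ Group.IsSolvable T₀ :=
        Or.inl inferInstance
      have hsup := commutator_sup_fixed hA hcop hsolv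
      rw [sup_comm] at hsup
      have hn2 : T₀ ⊓ centralizer (zpowers x : Set G) ≤
          normalizer ((⁅T₀, zpowers x⁆ : Subgroup G) : Set G) :=
        inf_le_left.trans (Cfsg.Agent.Lib.Coprime.Action.le_normalizer_commutator_left T₀ _)
      have ht' : t ∈ (T₀ ⊓ centralizer (zpowers x : Set G)) ⊔ ⁅T₀, zpowers x⁆ := by
        rw [hsup]; exact ht
      obtain ⟨t₂, ht₂, t₁, ht₁, e1⟩ := mem_sup_of_le_normalizer hn2 ht'
      -- `t₁` fixes `a`
      have hcQ : ⁅T₀, zpowers x⁆ ≤ (Qi R c : Subgroup G) := by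
        rw [commutator_le]
        intro u hu v hv
        have hvQ : v ∈ (Qi R c : Subgroup G) := (zpowers_le.2 hxQ) hv
        have h1 := (mem_normalizer_iff.mp (h.stab_le_normalizer_Qi c hu.2) v).mp hvQ
        rw [commutatorElement_def]
        exact mul_mem h1 (inv_mem hvQ)
      have ht₁a : t₁ • a = a := (mem_Qi.mp (hcQ ht₁)).2 a ha
      have hta : t • a = t₂ • a := by
        rw [← e1, mul_smul, ht₁a]
      have hcomm : t₂ * x = x * t₂ :=
        (mem_centralizer_iff.mp ht₂.2 x (mem_zpowers x)).symm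
      rw [hta, ← h.Ko_conj, mem_conj]
      have e2 : t₂⁻¹ * x * t₂ = x := by
        rw [mul_assoc, ← hcomm, ← mul_assoc]; simp
      rw [e2]
      exact hx
    exact (Subgroup.eq_of_le_of_card_ge hle (card_conj t _).le).symm
  -- Step 3
  have step3 : ∀ {e c : Ω}, R e c →
      OpIn r (stabilizer G e) ⊓ stabilizer G c ≤ OpIn r (stabilizer G c) := by
    intro e c he
    have hle : OpIn r (stabilizer G e) ⊓ stabilizer G c ≤ (Qi R c : Subgroup G) := by
      intro t ht
      exact mem_Qi.mpr ⟨ht.2, fun y hy => step2 he hy ht⟩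
    apply le_OpIn_of_SN
    · refine SN.trans (SN.of_le_normalizer hle ?_)
        (SN.of_le_normalizer (Qi_le_stab c) (h.stab_le_normalizer_Qi c))
      intro q hq
      exact normalizer_inf_of_mem (le_normalizer_OpIn' r _ (Qi_le_stab' he hq))
        (le_normalizer (Qi_le_stab c hq))
    · exact (OpIn_isPGroup r _).to_le inf_le_left
  -- Step 4
  obtain ⟨e, he⟩ := h.inn c
  by_contra hne
  set T := OpIn r (stabilizer G c) with hT
  set S := OpIn r (stabilizer G e) with hS
  have hTe : T ≤ stabilizer G e := step1 he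
  have hTS : T ≤ normalizer (S : Set G) := hTe.trans (le_normalizer_OpIn' r _)
  have hPp : IsPGroup r (S ⊔ T : Subgroup G) :=
    (OpIn_isPGroup r _).to_sup_of_normal_left' (OpIn_isPGroup r _) hTS
  have hNT : normalizer (T : Set G) = stabilizer G c :=
    h.normalizer_eq (OpIn_le r _) (le_normalizer_OpIn' r _) hne
  have hST : S ≤ T := by
    by_contra hnot
    have hlt : T < S ⊔ T := lt_of_le_of_ne le_sup_right (fun e0 => hnot (e0 ▸ le_sup_left))
    obtain ⟨z, hz, hzT, hzN⟩ := exists_mem_normalizer hPp hlt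
    obtain ⟨s, hs, t', ht', ez⟩ := exists_mul_of_mem_sup hTS hz
    rw [hNT] at hzN
    have hsc : s ∈ stabilizer G c := by
      have : s = z * t'⁻¹ := by rw [ez]; group
      rw [this]
      exact mul_mem hzN (inv_mem (OpIn_le r _ ht'))
    have hsT : s ∈ T := step3 he ⟨hs, hsc⟩
    exact hzT (by rw [ez]; exact mul_mem hsT ht')
  have hcard : Nat.card T = Nat.card S := by
    obtain ⟨g, hg⟩ := h.exists_smul e c
    rw [hT, hS, ← hg, ← stab_conj, ← OpIn_conj_eq, card_conj]
  have hSeq : S = T := Subgroup.eq_of_le_of_card_ge hST hcard.le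
  apply hne
  apply h.eq_bot_of_both he hTe
  · rw [← hSeq]
    exact le_normalizer_OpIn' r _
  · exact le_normalizer_OpIn' r _

end Main

end

end Cfsg.Agent.Lib.WBound
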